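import Cfsg.Agent.Lib.Helper67.LSF.Defs

/-!
# LSF [FIN]: finite subgroups of `GG F` are conjugate into `iota F S`
-/

set_option autoImplicit false

namespace Cfsg.Agent.Lib.Helper11.LSF

open Cfsg Cfsg.Agent.Lib.Helper67.LSF

universe u

theorem pkgFin (tree : PkgTree.{u}) (convex : PkgConvex.{u}) (stab : PkgStab.{u}) :
    PkgFin.{u} := by
  intro Ω _ S F H hH
  let K : Subgroup (SemidirectProduct (FreeGroup (X F)) (Equiv.Perm S) (autX (xperm F))) :=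
    H.map (GG F).subtype
  haveI : Finite K :=
    Finite.of_surjective (fun h : H => (⟨(GG F).subtype h.1, Subgroup.mem_map_of_mem _ h.2⟩ : K))
      (by rintro ⟨_, ⟨h, hh, rfl⟩⟩; exact ⟨⟨h, hh⟩, rfl⟩)
  obtain ⟨v, ⟨g, hg, rfl⟩, hv⟩ := tree (xperm F) K {v | ∃ g ∈ GG F, g.left = v}
    ⟨1, one_mem _, rfl⟩
    (by
      rintro h hh v ⟨g, hg, rfl⟩
      obtain ⟨h', hh', rfl⟩ := hh
      exact ⟨(GG F).subtype h' * g, mul_mem h'.2 hg, rfl⟩)
    (fun v hv L₁ L₂ hred hmem => convex S F v L₁ L₂ hred hv hmem)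
  refine ⟨⟨g, hg⟩⁻¹, fun h hh => ?_⟩
  have hK : (h : Ghat F) ∈ K := ⟨h, hh, rfl⟩
  have h1 := hv _ hK
  have h3 : ((h : Ghat F) * g).left = g.left := by
    rw [SemidirectProduct.mul_left]; exact h1
  have h2 : (g⁻¹ * (h : Ghat F) * g).left = 1 := by
    rw [mul_assoc, SemidirectProduct.mul_left, h3, SemidirectProduct.inv_left,
      SemidirectProduct.inv_right, ← map_mul, inv_mul_cancel, map_one]
  obtain ⟨s, hs⟩ := stab S F (g⁻¹ * (h : Ghat F) * g)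
    (mul_mem (mul_mem (inv_mem hg) h.2) hg) h2
  refine ⟨s, ?_⟩
  apply Subtype.ext
  rw [iota_coe, ← hs]
  simp

end Cfsg.Agent.Lib.Helper11.LSF
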